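import Mathlib
import Cfsg.Agent.Lib.Helper35.JR.Defs
import Cfsg.Agent.Lib.Helper43.AutPSL2.Basic

/-!
# Project JR (S3206): package [SYL4]

If the Sylow 2-subgroups of `PSL₂(F)` are abelian, each is a conjugate of the four-group `V₀`.
-/

set_option autoImplicit false

namespace Cfsg.Agent.Lib.Helper45.JR

open Cfsg.Agent.Lib.Helper35.JR

universe u

/-- A four-group from two commuting involutions. -/
theorem four_subgroup {G : Type*} [Group G] (x y : G) (hx : x * x = 1) (hy : y * y = 1)
    (hxy : y * x = x * y) (hx1 : x ≠ 1) (hy1 : y ≠ 1) (hne : x ≠ y) :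
    ∃ V : Subgroup G, (∀ g, g ∈ V ↔ g = 1 ∨ g = x ∨ g = y ∨ g = x * y) ∧ Nat.card V = 4 ∧
      ∀ g ∈ V, g * g = 1 := by
  have e1 : x * (x * y) = y := by rw [← mul_assoc, hx, one_mul]
  have e2 : y * (x * y) = x := by rw [← mul_assoc, hxy, mul_assoc, hy, mul_one]
  have e3 : x * y * x = y := by rw [mul_assoc, hxy, ← mul_assoc, hx, one_mul]
  have e4 : x * y * y = x := by rw [mul_assoc, hy, mul_one]
  have e5 : x * y * (x * y) = 1 := by rw [mul_assoc, e2, hx]
  have ix : x⁻¹ = x := inv_eq_of_mul_eq_one_right hx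
  have iy : y⁻¹ = y := inv_eq_of_mul_eq_one_right hy
  have ixy : (x * y)⁻¹ = x * y := inv_eq_of_mul_eq_one_right e5
  have hxy1 : x * y ≠ 1 := by
    intro h
    apply hne
    have : x = y⁻¹ := eq_inv_of_mul_eq_one_left h
    rw [this, iy]
  have hxxy : x ≠ x * y := by
    intro h
    apply hy1
    have : x * 1 = x * y := by rw [mul_one]; exact h
    exact (mul_left_cancel this).symm
  have hyxy : y ≠ x * y := by
    intro h
    apply hx1
    have : 1 * y = x * y := by rw [one_mul]; exact h
    exact (mul_right_cancel this).symm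
  let V : Subgroup G :=
    { carrier := {1, x, y, x * y}
      mul_mem' := by
        intro a b ha hb
        simp only [Set.mem_insert_iff, Set.mem_singleton_iff] at ha hb ⊢
        rcases ha with ha | ha | ha | ha <;> rcases hb with hb | hb | hb | hb <;> rw [ha, hb]
        · left; exact one_mul 1
        · right; left; exact one_mul x
        · right; right; left; exact one_mul y
        · right; right; right; exact one_mul _
        · right; left; exact mul_one x
        · left; exact hx
        · right; right; right; rfl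
        · right; right; left; exact e1
        · right; right; left; exact mul_one y
        · right; right; right; exact hxy
        · left; exact hy
        · right; left; exact e2
        · right; right; right; exact mul_one _
        · right; right; left; exact e3
        · right; left; exact e4
        · left; exact e5
      one_mem' := by simp
      inv_mem' := by
        intro a ha
        simp only [Set.mem_insert_iff, Set.mem_singleton_iff] at ha ⊢
        rcases ha with ha | ha | ha | ha <;> rw [ha]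
        · left; exact inv_one
        · right; left; exact ix
        · right; right; left; exact iy
        · right; right; right; exact ixy }
  have hmem : ∀ g, g ∈ V ↔ g = 1 ∨ g = x ∨ g = y ∨ g = x * y := by
    intro g
    show g ∈ ({1, x, y, x * y} : Set G) ↔ _
    simp only [Set.mem_insert_iff, Set.mem_singleton_iff]
  refine ⟨V, hmem, ?_, ?_⟩
  · have hc : Nat.card V = Set.ncard ({1, x, y, x * y} : Set G) := by
      rw [← Nat.card_coe_set_eq]
      rfl
    rw [hc, Set.ncard_insert_of_notMem, Set.ncard_insert_of_notMem, Set.ncard_pair hyxy]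
    · simp only [Set.mem_insert_iff, Set.mem_singleton_iff, not_or]
      exact ⟨hne, hxxy⟩
    · simp only [Set.mem_insert_iff, Set.mem_singleton_iff, not_or]
      exact ⟨fun h => hx1 h.symm, fun h => hy1 h.symm, fun h => hxy1 h.symm⟩
  · intro g hg
    rcases (hmem g).mp hg with e | e | e | e <;> rw [e]
    · exact one_mul 1
    · exact hx
    · exact hy
    · exact e5

section

variable {F : Type u} [Field F]

local notation "PSL2" => Matrix.ProjectiveSpecialLinearGroup (Fin 2) F
local notation "SL2" => Matrix.SpecialLinearGroup (Fin 2) F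
local notation "M2" => Matrix (Fin 2) (Fin 2) F

theorem mkSL_eq_iff (A B : SL2) :
    (QuotientGroup.mk A : PSL2) = QuotientGroup.mk B ↔ (A : M2) = B ∨ (A : M2) = -(B : M2) :=
  Cfsg.Agent.Lib.Helper43.AutPSL2.pm_eq_iff A B

theorem mk_eq_of_smul (M X : SL2) (c : F) (h : (M : M2) = c • (X : M2)) :
    (QuotientGroup.mk M : PSL2) = QuotientGroup.mk X := by
  have hdet : c ^ 2 = 1 := by
    have h1 := M.det_coe
    rw [h, Matrix.det_smul, X.det_coe, Fintype.card_fin, mul_one] at h1
    exact h1
  have hc : c = 1 ∨ c = -1 := by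
    have : (c - 1) * (c + 1) = 0 := by linear_combination hdet
    rcases mul_eq_zero.mp this with h' | h'
    · left; linear_combination h'
    · right; linear_combination h'
  rw [mkSL_eq_iff]
  rcases hc with rfl | rfl
  · left; rw [h, one_smul]
  · right; rw [h, neg_smul, one_smul]

theorem matAA : (!![0, -1; 1, 0] : M2) * !![0, -1; 1, 0] = -1 := by
  rw [Matrix.mul_fin_two]
  ext i j; fin_cases i <;> fin_cases j <;> simp

theorem matBB (a b : F) (h : a ^ 2 + b ^ 2 = -1) :
    (!![a, b; b, -a] : M2) * !![a, b; b, -a] = -1 := by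
  rw [Matrix.mul_fin_two]
  ext i j; fin_cases i <;> fin_cases j <;> simp
  · linear_combination h
  · ring
  · ring
  · linear_combination h

theorem matBA (a b : F) :
    (!![a, b; b, -a] : M2) * !![0, -1; 1, 0] = -((!![0, -1; 1, 0] : M2) * !![a, b; b, -a]) := by
  rw [Matrix.mul_fin_two, Matrix.mul_fin_two]
  ext i j; fin_cases i <;> fin_cases j <;> simp

theorem pA_mul_self : pA F * pA F = 1 := by
  have : (QuotientGroup.mk (elA F * elA F) : PSL2) = QuotientGroup.mk (1 : SL2) := by
    rw [mkSL_eq_iff]; right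
    rw [Matrix.SpecialLinearGroup.coe_mul, Matrix.SpecialLinearGroup.coe_one]
    exact matAA
  exact this

theorem pB_mul_self (a b : F) (h : a ^ 2 + b ^ 2 = -1) : pB a b h * pB a b h = 1 := by
  have : (QuotientGroup.mk (elB a b h * elB a b h) : PSL2) = QuotientGroup.mk (1 : SL2) := by
    rw [mkSL_eq_iff]; right
    rw [Matrix.SpecialLinearGroup.coe_mul, Matrix.SpecialLinearGroup.coe_one]
    exact matBB a b h
  exact this

theorem pB_mul_pA (a b : F) (h : a ^ 2 + b ^ 2 = -1) : pB a b h * pA F = pA F * pB a b h := by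
  have : (QuotientGroup.mk (elB a b h * elA F) : PSL2) = QuotientGroup.mk (elA F * elB a b h) := by
    rw [mkSL_eq_iff]; right
    rw [Matrix.SpecialLinearGroup.coe_mul, Matrix.SpecialLinearGroup.coe_mul]
    exact matBA a b
  exact this

theorem pA_ne_one : pA F ≠ 1 := by
  intro h
  have h' : (QuotientGroup.mk (elA F) : PSL2) = QuotientGroup.mk (1 : SL2) := h
  rw [mkSL_eq_iff, Matrix.SpecialLinearGroup.coe_one] at h'
  rcases h' with e | e
  · have e00 : (!![0, -1; 1, 0] : M2) 0 0 = (1 : M2) 0 0 := congrFun (congrFun e 0) 0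
    simp at e00
  · have e00 : (!![0, -1; 1, 0] : M2) 0 0 = (-1 : M2) 0 0 := congrFun (congrFun e 0) 0
    simp at e00

theorem pB_ne_one (h2 : (2 : F) ≠ 0) (a b : F) (h : a ^ 2 + b ^ 2 = -1) : pB a b h ≠ 1 := by
  intro h0
  have h' : (QuotientGroup.mk (elB a b h) : PSL2) = QuotientGroup.mk (1 : SL2) := h0
  rw [mkSL_eq_iff, Matrix.SpecialLinearGroup.coe_one] at h'
  rcases h' with e | e
  · have e00 : (!![a, b; b, -a] : M2) 0 0 = (1 : M2) 0 0 := congrFun (congrFun e 0) 0
    have e11 : (!![a, b; b, -a] : M2) 1 1 = (1 : M2) 1 1 := congrFun (congrFun e 1) 1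
    simp at e00 e11
    apply h2
    linear_combination (-1 : F) * e00 - e11
  · have e00 : (!![a, b; b, -a] : M2) 0 0 = (-1 : M2) 0 0 := congrFun (congrFun e 0) 0
    have e11 : (!![a, b; b, -a] : M2) 1 1 = (-1 : M2) 1 1 := congrFun (congrFun e 1) 1
    simp at e00 e11
    apply h2
    linear_combination e00 - e11

theorem pA_ne_pB (h2 : (2 : F) ≠ 0) (a b : F) (h : a ^ 2 + b ^ 2 = -1) : pA F ≠ pB a b h := by
  intro h0
  have h' : (QuotientGroup.mk (elA F) : PSL2) = QuotientGroup.mk (elB a b h) := h0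
  rw [mkSL_eq_iff] at h'
  rcases h' with e | e
  · have e01 : (!![0, -1; 1, 0] : M2) 0 1 = (!![a, b; b, -a] : M2) 0 1 := congrFun (congrFun e 0) 1
    have e10 : (!![0, -1; 1, 0] : M2) 1 0 = (!![a, b; b, -a] : M2) 1 0 := congrFun (congrFun e 1) 0
    simp at e01 e10
    apply h2
    linear_combination e10 - e01
  · have e01 : (!![0, -1; 1, 0] : M2) 0 1 = (-(!![a, b; b, -a] : M2)) 0 1 := congrFun (congrFun e 0) 1
    have e10 : (!![0, -1; 1, 0] : M2) 1 0 = (-(!![a, b; b, -a] : M2)) 1 0 := congrFun (congrFun e 1) 0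
    simp at e01 e10
    apply h2
    linear_combination e01 + e10

theorem cent_sub (hV0 : PkgV0.{u}) (h2 : (2 : F) ≠ 0) (a b : F) (h : a ^ 2 + b ^ 2 = -1) (g : PSL2)
    (hgA : g * pA F = pA F * g) (hgB : g * pB a b h = pB a b h * g) : g ∈ V0 a b h := by
  obtain ⟨M, rfl⟩ := QuotientGroup.mk_surjective g
  have hA : (M : M2) * !![0, -1; 1, 0] = !![0, -1; 1, 0] * (M : M2) ∨
      (M : M2) * !![0, -1; 1, 0] = -(!![0, -1; 1, 0] * (M : M2)) := by
    have := (mkSL_eq_iff (M * elA F) (elA F * M)).mp hgA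
    rw [Matrix.SpecialLinearGroup.coe_mul, Matrix.SpecialLinearGroup.coe_mul] at this
    exact this
  have hB : (M : M2) * !![a, b; b, -a] = !![a, b; b, -a] * (M : M2) ∨
      (M : M2) * !![a, b; b, -a] = -(!![a, b; b, -a] * (M : M2)) := by
    have := (mkSL_eq_iff (M * elB a b h) (elB a b h * M)).mp hgB
    rw [Matrix.SpecialLinearGroup.coe_mul, Matrix.SpecialLinearGroup.coe_mul] at this
    exact this
  obtain ⟨c, hc⟩ := hV0 F h2 a b h (M : M2) hA hB
  show _ ∈ ({1, pA F, pB a b h, pA F * pB a b h} : Set PSL2)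
  simp only [Set.mem_insert_iff, Set.mem_singleton_iff]
  rcases hc with hc | hc | hc | hc
  · left
    exact mk_eq_of_smul M 1 c (by rw [Matrix.SpecialLinearGroup.coe_one]; exact hc)
  · right; left
    exact mk_eq_of_smul M (elA F) c hc
  · right; right; left
    exact mk_eq_of_smul M (elB a b h) c hc
  · right; right; right
    exact mk_eq_of_smul M (elA F * elB a b h) c
      (by rw [Matrix.SpecialLinearGroup.coe_mul]; exact hc)

end

/-- **[SYL4]** -/
theorem pkgSyl4 (hV0 : PkgV0.{u}) : PkgSyl4.{u} := by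
  intro F _ _ h2 a b h hab P
  classical
  have : Fact (Nat.Prime 2) := ⟨Nat.prime_two⟩
  obtain ⟨V, hVmem, hVcard, hVsq⟩ := four_subgroup (pA F) (pB a b h) pA_mul_self
    (pB_mul_self a b h) (pB_mul_pA a b h) pA_ne_one (pB_ne_one h2 a b h) (pA_ne_pB h2 a b h)
  have hVV0 : ∀ g, g ∈ V ↔ g ∈ V0 a b h := by
    intro g
    rw [hVmem]
    show _ ↔ g ∈ ({1, pA F, pB a b h, pA F * pB a b h} : Set _)
    simp only [Set.mem_insert_iff, Set.mem_singleton_iff]
  have hVp : IsPGroup 2 V := IsPGroup.of_card (n := 2) (by rw [hVcard]; norm_num)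
  obtain ⟨P0, hP0⟩ := hVp.exists_le_sylow
  have hP0V : (P0 : Subgroup (Matrix.ProjectiveSpecialLinearGroup (Fin 2) F)) = V := by
    apply le_antisymm _ hP0
    intro g hg
    rw [hVV0]
    apply cent_sub hV0 h2 a b h g
    · exact hab P0 g hg _ (hP0 ((hVmem _).mpr (Or.inr (Or.inl rfl))))
    · exact hab P0 g hg _ (hP0 ((hVmem _).mpr (Or.inr (Or.inr (Or.inl rfl)))))
  obtain ⟨g, hg⟩ := MulAction.exists_smul_eq (Matrix.ProjectiveSpecialLinearGroup (Fin 2) F) P0 P
  have hmem : ∀ x, x ∈ (P : Subgroup (Matrix.ProjectiveSpecialLinearGroup (Fin 2) F)) ↔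
      g⁻¹ * x * g ∈ V0 a b h := by
    intro x
    rw [← hg, ← hVV0, ← hP0V, Sylow.smul_def, Sylow.pointwise_smul_def,
      Subgroup.mem_pointwise_smul_iff_inv_smul_mem, MulAut.smul_def, MulAut.conj_inv_apply]
  refine ⟨?_, ?_, g, hmem⟩
  · rw [P.card_eq_multiplicity, ← P0.card_eq_multiplicity, hP0V, hVcard]
  · intro x hx
    have h1 := (hmem x).mp hx
    rw [← hVV0] at h1
    have hsq : (g⁻¹ * x * g) * (g⁻¹ * x * g) = 1 := hVsq _ h1
    have h3 : g⁻¹ * (x * x) * g = 1 := by rw [← hsq]; group
    have h4 : x * x = 1 := by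
      calc x * x = g * (g⁻¹ * (x * x) * g) * g⁻¹ := by group
        _ = 1 := by rw [h3]; group
    rw [pow_two]; exact h4

end Cfsg.Agent.Lib.Helper45.JR
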